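import Cfsg.Agent.H876.EK.Orb

/-!
# Degrees of faithful representations: rational elements of order 25 (helper876)
-/

set_option autoImplicit false

namespace Cfsg.Agent.H876.EK

/-- powers of two modulo 25 -/
private theorem two_gen : ∀ k : Fin 25, k.1 % 5 ≠ 0 → ∃ n : Fin 20, 2 ^ n.1 % 25 = k.1 := by decide

theorem isConj_pow_pow {T : Type*} [Group T] {x : T} (h : IsConj x (x ^ 2)) (n : ℕ) :
    IsConj x (x ^ (2 ^ n)) := by
  induction n with
  | zero => rw [pow_zero, pow_one]
  | succ n ih =>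
    refine h.trans ?_
    have h1 : IsConj (x ^ 2) ((x ^ (2 ^ n)) ^ 2) := by
      obtain ⟨c, hc⟩ := isConj_iff.1 ih
      refine isConj_iff.2 ⟨c, ?_⟩
      rw [← conj_pow, hc]
    rwa [← pow_mul, ← pow_succ] at h1

/-- a rational element of order 25 -/
theorem orb25 {T : Type*} [Group T] {K : Type*} [Field K] [IsAlgClosed K] {d : ℕ}
    (ρ : T →* Matrix.GeneralLinearGroup (Fin d) K) (hρ : Function.Injective ρ) {x : T}
    (hK : ((5 : ℕ) : K) ≠ 0) (hx : orderOf x = 25) (h2 : IsConj x (x ^ 2)) : 20 ≤ d := by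
  classical
  have hS : ((Finset.range 25).filter fun k => k % 5 ≠ 0).card = 20 := by decide
  rw [← hS]
  refine orb ρ hρ (x := x) (m := 5) (r := 5) hK ?_ ?_ _ ?_ ?_
  · intro h
    have := orderOf_dvd_of_pow_eq_one h
    rw [hx] at this
    exact absurd this (by norm_num)
  · have h := pow_orderOf_eq_one x
    rwa [hx] at h
  · intro k hk
    obtain ⟨hk1, hk2⟩ := Finset.mem_filter.1 hk
    obtain ⟨n, hn⟩ := two_gen ⟨k, Finset.mem_range.1 hk1⟩ hk2
    have h3 := isConj_pow_pow h2 n.1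
    rwa [← pow_mod_orderOf x (2 ^ n.1), hx, hn] at h3
  · intro l hl hl1 a ha b hb hab
    have h5 : orderOf l = 5 ^ (1 + 1) := orderOf_eq_prime_pow (hp := ⟨Nat.prime_five⟩) (by simpa using hl1)
      (by simpa using hl)
    exact eq_of_pow h5 (by simpa using Finset.mem_range.1 (Finset.mem_filter.1 ha).1)
      (by simpa using Finset.mem_range.1 (Finset.mem_filter.1 hb).1) hab

/-- two primes cannot both vanish -/
theorem ne_zero_of {K : Type*} [Field K] {a b : ℕ} (hab : Nat.Coprime a b) (ha : (a : K) = 0) : (b : K) ≠ 0 := by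
  intro hb
  have h1 : ((Nat.gcd a b : ℕ) : K) = 0 := by
    have h2 := congrArg (Int.cast : ℤ → K) (Nat.gcd_eq_gcd_ab a b)
    push_cast at h2
    rw [h2, ha, hb]
    ring
  rw [Nat.Coprime.gcd_eq_one hab, Nat.cast_one] at h1
  exact one_ne_zero h1

end Cfsg.Agent.H876.EK
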