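import Cfsg.Agent.H876.EK.Extra
import Cfsg.Agent.MonsterU.ModelChart
import Cfsg.Agent.MonsterU.Uncond
import Cfsg.Agent.MonsterP.Equiv

/-!
# Faithful representations of the Monster in odd characteristic have degree at least 4096 (helper876)
-/

set_option autoImplicit false

namespace Cfsg.Agent.H876.EK.Mon

open Cfsg Subgroup Cfsg.Agent.MonsterX.Model Cfsg.Agent.MonsterX.MainPack

/-- the model -/
theorem deg_model {K : Type*} [Field K] (h2 : (2 : K) ≠ 0) {d : ℕ}
    (ρ : ↥Cfsg.Agent.MonsterX.InstData.M.G →* Matrix.GeneralLinearGroup (Fin d) K) (hρ : Function.Injective ρ) :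
    4096 ≤ d := by
  have A := Cfsg.Agent.MonsterU.Uncond.all
  have L := Cfsg.Agent.MonsterU.ModelChart.large A.hG A.hR A.hL A.hO A.hT
  have h1 : Nat.card (Cfsg.Agent.MonsterX.InstData.M.Q.subgroupOf Cfsg.Agent.MonsterX.InstData.M.G) = 2 ^ 25 := by
    rw [← A.hG.Q_card]
    exact Nat.card_congr (Subgroup.subgroupOfEquivOfLe (A.hG.Q_le.trans
      Cfsg.Agent.MonsterX.MainBasic.C_le)).toEquiv
  have hfin : Finite (Cfsg.Agent.MonsterX.InstData.M.Q.subgroupOf Cfsg.Agent.MonsterX.InstData.M.G) :=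
    Nat.finite_of_card_ne_zero (by rw [h1]; norm_num)
  have h3 := large_deg L.z_mem L.z_ne L.z_sq L.comm_z L.comm L.cent h2 ρ hρ
  rw [h1] at h3
  by_contra h4
  have h5 : d ^ 2 ≤ 4095 ^ 2 := Nat.pow_le_pow_left (by omega) 2
  omega

/-- **The Monster.** -/
theorem deg {T : Type*} [Group T] (h : Spor.IsoM T) {K : Type*} [Field K] (h2 : (2 : K) ≠ 0) {d : ℕ}
    (ρ : T →* Matrix.GeneralLinearGroup (Fin d) K) (hρ : Function.Injective ρ) : 4096 ≤ d := by
  obtain ⟨e⟩ := h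
  obtain ⟨f⟩ := Cfsg.Agent.MonsterP.Equiv.equiv
  exact deg_model h2 (ρ.comp (e.trans f).symm.toMonoidHom) (hρ.comp (e.trans f).symm.injective)

end Cfsg.Agent.H876.EK.Mon
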